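import Cfsg.Agent.H42.IVSpec

/-! Tower IV, slot Reg: an abelian 2-group has a regular orbit on an abelian group of odd order. -/

set_option autoImplicit false

namespace H64.IvReg

open Subgroup

universe u

variable {H : Type u} [Group H] [Finite H]

theorem card_le (M X : Subgroup H) (hM : M.Normal) {v : H} (hv : v ∈ M) :
    Nat.card X ≤ Nat.card M * Nat.card (X ⊓ centralizer {v} : Subgroup H) := by
  classical
  have key : ∀ m : M, ∃ r : H, ∀ x ∈ X, x * v * x⁻¹ = m → r ∈ X ∧ r * v * r⁻¹ = m := fun m => by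
    by_cases h : ∃ x ∈ X, x * v * x⁻¹ = m
    · obtain ⟨x, hx, e⟩ := h
      exact ⟨x, fun _ _ _ => ⟨hx, e⟩⟩
    · exact ⟨1, fun x hx e => (h ⟨x, hx, e⟩).elim⟩
  choose r hr using key
  rw [← Nat.card_prod]
  refine Nat.card_le_card_of_injective (fun x : X => ((⟨_, hM.conj_mem v hv x⟩ : M),
    (⟨(r ⟨_, hM.conj_mem v hv x⟩)⁻¹ * x, ?_, ?_⟩ : (X ⊓ centralizer {v} : Subgroup H)))) ?_
  · exact X.mul_mem (X.inv_mem (hr _ x x.2 rfl).1) x.2
  · have := (hr ⟨_, hM.conj_mem v hv x⟩ x x.2 rfl).2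
    refine mem_centralizer_singleton_iff.2 ?_
    generalize r ⟨_, hM.conj_mem v hv x⟩ = y at this
    calc y⁻¹ * x * v = y⁻¹ * (x * v * (x : H)⁻¹) * x := by group
      _ = _ := by rw [← show y * v * y⁻¹ = x * v * (x : H)⁻¹ from this]; group
  · intro x y e
    have e1 := congrArg Prod.fst e
    have e2 := congrArg (fun p => (p.2 : H)) e
    simp only at e1 e2
    rw [e1] at e2
    exact Subtype.ext (mul_left_cancel e2)

omit [Finite H] in
theorem eq_of_sq {M : Subgroup H} (hc : IsMulCommutative M) (ho : Odd (Nat.card M)) {a b : H}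
    (ha : a ∈ M) (hb : b ∈ M) (e : a * a = b * b) : a = b := by
  have hab : a * b⁻¹ = b⁻¹ * a := congrArg Subtype.val (hc.is_comm.comm ⟨a, ha⟩ ⟨b⁻¹, inv_mem hb⟩)
  have h1 : (a * b⁻¹) ^ 2 = 1 := by
    calc (a * b⁻¹) ^ 2 = (a * b⁻¹) * (a * b⁻¹) := sq _
      _ = b⁻¹ * (a * a) * b⁻¹ := by rw [hab]; nth_rw 2 [← hab]; group
      _ = 1 := by rw [e]; group
  have h2 : (a * b⁻¹) ^ Nat.card M = 1 :=
    congrArg Subtype.val (pow_card_eq_one' (x := (⟨_, mul_mem ha (inv_mem hb)⟩ : M)))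
  have := pow_gcd_eq_one.2 ⟨h1, h2⟩
  rwa [Nat.coprime_two_left.2 ho, pow_one, mul_inv_eq_one] at this

theorem jobReg : H42.IV.JobReg.{u} := by
  classical
  intro H _ _ M X hM hc ho hX h2
  have cM : ∀ a ∈ M, ∀ b ∈ M, a * b = b * a := fun a ha b hb =>
    congrArg Subtype.val (hc.is_comm.comm ⟨a, ha⟩ ⟨b, hb⟩)
  have cX : ∀ a ∈ X, ∀ b ∈ X, a * b = b * a := fun a ha b hb =>
    congrArg Subtype.val (hX.is_comm.comm ⟨a, ha⟩ ⟨b, hb⟩)
  obtain ⟨v, hv, hmin⟩ := Set.exists_min_image (M : Set H)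
    (fun v => Nat.card (X ⊓ centralizer {v} : Subgroup H)) (Set.toFinite _) ⟨1, one_mem M⟩
  refine (card_le M X hM hv).trans (Nat.mul_le_mul_left _ (card_le_of_le (le_inf inf_le_left ?_)))
  intro s₀ hs₀
  by_contra hn
  obtain ⟨k, hk⟩ := h2 ⟨s₀, hs₀.1⟩
  have ex : ∃ k : ℕ, s₀ ^ 2 ^ k ∈ centralizer (M : Set H) :=
    ⟨k, by rw [show s₀ ^ 2 ^ k = 1 from congrArg Subtype.val hk]; exact one_mem _⟩
  obtain ⟨j, hj⟩ : ∃ j, Nat.find ex = j + 1 :=
    Nat.exists_eq_succ_of_ne_zero fun e => hn (by simpa [e] using Nat.find_spec ex)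
  have h1 : s₀ ^ 2 ^ j ∉ centralizer (M : Set H) := Nat.find_min ex (by omega)
  have h3 : s₀ ^ 2 ^ j * s₀ ^ 2 ^ j ∈ centralizer (M : Set H) := by
    rw [← pow_two, ← pow_mul, ← pow_succ, ← hj]; exact Nat.find_spec ex
  have h4 : s₀ ^ 2 ^ j ∈ X ⊓ centralizer {v} := pow_mem hs₀ _
  generalize s₀ ^ 2 ^ j = s at h1 h3 h4
  have sv : s * v * s⁻¹ = v := by
    rw [mem_centralizer_singleton_iff.1 h4.2, mul_inv_cancel_right]
  obtain ⟨m, hm, hms⟩ : ∃ m ∈ M, m * s ≠ s * m := by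
    by_contra! h; exact h1 h
  have hm' := hM.conj_mem m hm s
  obtain ⟨w, hw⟩ : ∃ w, w = m⁻¹ * (s * m * s⁻¹) := ⟨_, rfl⟩
  have wM : w ∈ M := hw ▸ mul_mem (inv_mem hm) hm'
  have w1 : w ≠ 1 := fun e => hms (by
    rw [hw, inv_mul_eq_one, eq_mul_inv_iff_mul_eq] at e; exact e)
  have sw : s * w * s⁻¹ = w⁻¹ := by
    calc s * w * s⁻¹ = (s * m * s⁻¹)⁻¹ * ((s * s) * m * (s * s)⁻¹) := by rw [hw]; group
      _ = w⁻¹ := by rw [← h3 m hm, hw]; group
  have su : s * (v * w) * s⁻¹ = v * w⁻¹ := by rw [← sw]; nth_rw 2 [← sv]; group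
  have lt : X ⊓ centralizer {v * w} < X ⊓ centralizer {v} := by
    refine lt_of_le_of_ne (fun x hx => ⟨hx.1, mem_centralizer_singleton_iff.2 ?_⟩) fun e => ?_
    · have e1 : x * (v * w) * x⁻¹ = v * w := by
        rw [mem_centralizer_singleton_iff.1 hx.2, mul_inv_cancel_right]
      have e2 : x * (v * w⁻¹) * x⁻¹ = v * w⁻¹ := by
        calc x * (v * w⁻¹) * x⁻¹ = (x * s) * (v * w) * (x * s)⁻¹ := by rw [← su]; group
          _ = s * (x * (v * w) * x⁻¹) * s⁻¹ := by rw [cX x hx.1 s h4.1]; group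
          _ = _ := by rw [e1, su]
      have e3 : v * w * (v * w⁻¹) = v * v := by rw [mul_assoc, ← mul_assoc w, cM w wM v hv]; group
      have := eq_of_sq hc ho (hM.conj_mem v hv x) hv (by
        calc x * v * x⁻¹ * (x * v * x⁻¹) = x * (v * w * (v * w⁻¹)) * x⁻¹ := by rw [e3]; group
          _ = (x * (v * w) * x⁻¹) * (x * (v * w⁻¹) * x⁻¹) := by group
          _ = _ := by rw [e1, e2, e3])
      exact mul_inv_eq_iff_eq_mul.1 this
    · have h5 := mem_centralizer_singleton_iff.1 (e ▸ h4 : s ∈ X ⊓ centralizer {v * w}).2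
      rw [h5, mul_inv_cancel_right, mul_right_inj, eq_inv_iff_mul_eq_one] at su
      exact w1 (eq_of_sq hc ho wM (one_mem M) (by rw [su, mul_one]))
  exact (hmin (v * w) (mul_mem hv wM)).not_gt
    (lt_of_le_of_ne (card_le_of_le lt.le) fun e => lt.ne (eq_of_le_of_card_ge lt.le e.ge))

end H64.IvReg
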