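import Cfsg.Agent.H64.Stein
import Cfsg.Agent.H63.RSD4
import Cfsg.Agent.H63.RSE8
import Cfsg.Agent.H65.All
import Cfsg.Agent.H56.OrthOrd
import Cfsg.Agent.S1082
import Cfsg.Agent.S0296

/-! The subsystem subgroup `D₄(4)` of `E₈(k)` in characteristic two. -/

set_option autoImplicit false
set_option linter.unusedSectionVars false

namespace H64.O84

open Cfsg.Lie H63 H65

/-- A root map compatible with the commutator tables modulo two. -/
def SubOK (D E : ChevalleyDatum) (ρ : ℕ → ℕ) : Prop :=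
  ∀ r < D.nroots, ρ r < E.nroots ∧ ρ (D.neg r) = E.neg (ρ r) ∧ ∀ s < D.nroots,
    (s ≠ r → ρ s ≠ ρ r) ∧ (s ≠ D.neg r → ρ s ≠ E.neg (ρ r)) ∧
    (E.commTerms (ρ r) (ρ s)).map (fun c => (c.1, c.2.1 % 2, c.2.2)) =
      (D.commTerms r s).map (fun c => (ρ c.1, c.2.1 % 2, c.2.2))

instance (D E : ChevalleyDatum) (ρ : ℕ → ℕ) : Decidable (SubOK D E ρ) := by
  unfold SubOK
  refine @Nat.decidableBallLT _ _ fun r _ => @instDecidableAnd _ _ _ (@instDecidableAnd _ _ _ ?_)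
  refine @Nat.decidableBallLT _ _ fun s _ => @instDecidableAnd _ _ _ (@instDecidableAnd _ _ _ ?_)
  exact (inferInstance : DecidableEq (List (ℕ × ℤ × ℕ × ℕ))) _ _

/-- The standard `D₄` (simple roots `a₂, a₃, a₄, a₅`) in `E₈`. -/
def rho (r : ℕ) : ℕ := [87, 91, 92, 96, 97, 98, 102, 103, 108, 109, 104, 113, 126, 135, 130, 131,
  136, 137, 141, 142, 143, 147, 148, 152].getD r 0

theorem rho_ok : SubOK chevD4 chevE8 rho := by decide +kernel

section sub

variable {D E : ChevalleyDatum} {ρ : ℕ → ℕ} {F k : Type*} [Field F] [Field k] [CharP k 2]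
  {G : Type*} [Group G] {x : ℕ → k → G}

theorem cast_mod_two (c : ℤ) : ((c % 2 : ℤ) : k) = c := by
  conv_rhs => rw [← Int.emod_add_mul_ediv c 2]
  push_cast
  rw [show (2 : k) = 0 from CharTwo.two_eq_zero, zero_mul, add_zero]

theorem wd_terms (x : ℕ → k → G) (L : List (ℕ × ℤ × ℕ × ℕ)) (t u : k) :
    wd x (L.map fun c => (c.1, (c.2.1 : k) * (-t) ^ c.2.2.1 * u ^ c.2.2.2)) =
      wd x ((L.map fun c => (c.1, c.2.1 % 2, c.2.2)).map
        fun c : ℕ × ℤ × ℕ × ℕ => (c.1, (c.2.1 : k) * (-t) ^ c.2.2.1 * u ^ c.2.2.2)) := by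
  rw [List.map_map]
  congr 2
  funext c
  simp only [Function.comp, cast_mod_two]

theorem SubOK.st (o : SubOK D E ρ) (h : St E x) (φ : F →+* k) :
    St D (fun r t => x (ρ r) (φ t)) where
  add r hr t u := by rw [h.add _ (o r hr).1, map_add]
  comm r s hr hs h1 h2 t u := by
    obtain ⟨a, b, c⟩ := (o r hr).2.2 s hs
    rw [h.comm _ _ (o r hr).1 (o s hs).1 (a h1) (b h2)]
    congr 1
    unfold ChevalleyDatum.commWord
    rw [wd_terms, c, List.map_map]
    unfold wd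
    rw [List.map_map, List.map_map]
    congr 2
    funext c
    simp only [Function.comp, cast_mod_two, map_mul, map_pow, map_neg, map_intCast]

theorem SubOK.nn (o : SubOK D E ρ) (φ : F →+* k) {r : ℕ} (hr : r < D.nroots) (t : F) :
    nn D (fun r t => x (ρ r) (φ t)) r t = nn E x (ρ r) (φ t) := by
  rw [nn_eq, nn_eq, (o r hr).2.1, map_neg, map_inv₀]

theorem SubOK.hh (o : SubOK D E ρ) (φ : F →+* k) {r : ℕ} (hr : r < D.nroots) (t : F) :
    hh D (fun r t => x (ρ r) (φ t)) r t = hh E x (ρ r) (φ t) := by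
  rw [hh_eq, hh_eq, o.nn φ hr, o.nn φ hr, map_neg, map_one]

theorem SubOK.r3 (o : SubOK D E ρ) (h : R3 E x) (φ : F →+* k) :
    R3 D (fun r t => x (ρ r) (φ t)) := fun r hr a b ha hb => by
  rw [o.hh φ hr, o.hh φ hr, o.hh φ hr, map_mul]
  exact h _ (o r hr).1 _ _ ((map_ne_zero φ).2 ha) ((map_ne_zero φ).2 hb)

end sub

local instance tD4 : Tab chevD4 := tabD4
local instance cD4 : Comm chevD4 := commD4
local instance tE8 : Tab chevE8 := tabE8
local instance cE8 : Comm chevE8 := commE8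

section four

variable (F : Type*) [Field F] [Finite F]

theorem nonempty_pom [CharP F 2] {n : ℕ} (hn : 3 ≤ n) :
    Nonempty (Cfsg.POmega F (Cfsg.quadFormPlus n F) ≃* Cfsg.Omega F (Cfsg.quadFormPlus n F)) := by
  have := Fintype.ofFinite F
  have h := H56.card_center_commutator (H58.qPlus_nondeg n F)
    (H56.not_isExc_of_finrank (by simp; omega)) (by simp; omega)
  rw [if_neg (by simp [CharTwo.two_eq_zero]), Subgroup.card_eq_one] at h
  exact ⟨(H56.pOmegaEquiv _ (H58.coe_qPlus n F)).trans ((QuotientGroup.quotientMulEquivOfEq h).trans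
    (QuotientGroup.quotientBot.trans (H56.omegaEquiv _ (H58.coe_qPlus n F)).symm))⟩

/-- `D₄(q) ≅ Ω₈⁺(q)` for `q` even. -/
theorem d4_equiv [CharP F 2] :
    Nonempty (chevD4.group F ≃* Cfsg.Omega F (Cfsg.quadFormPlus 4 F)) := by
  obtain ⟨a⟩ := Cfsg.Agent.S1082.result (F := F)
  obtain ⟨b⟩ := nonempty_pom F (n := 4) (by norm_num)
  exact ⟨a.trans b⟩

theorem d4_simple : IsSimpleGroup (chevD4.group F) := by
  have := Fintype.ofFinite F
  obtain ⟨a⟩ := Cfsg.Agent.S1082.result (F := F)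
  exact a.isSimpleGroup_congr.2 (Cfsg.Agent.S0296.result 4 le_rfl)

theorem om_simple [CharP F 2] : IsSimpleGroup (Cfsg.Omega F (Cfsg.quadFormPlus 4 F)) := by
  obtain ⟨a⟩ := d4_equiv F
  exact a.isSimpleGroup_congr.1 (d4_simple F)

theorem charP_of_card (h : Nat.card F = 4) : CharP F 2 := by
  have := Fintype.ofFinite F
  have h4 : ((4 : ℕ) : F) = 0 := by
    rw [← h, Nat.card_eq_fintype_card]; exact FiniteField.cast_card_eq_zero F
  have h2 : (2 : F) = 0 := by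
    have : (2 : F) * 2 = 0 := by rw [← h4]; norm_num
    exact (mul_self_eq_zero.1 this)
  exact CharTwo.of_one_ne_zero_of_two_eq_zero one_ne_zero h2

variable {F}

/-- The root element of the adjoint group. -/
noncomputable def xD (r : ℕ) (t : F) : chevD4.group F :=
  if h : r < chevD4.nroots then ⟨xU chevD4 F r t, by rw [group_eq]; exact x_mem_GG (x := xU chevD4 F) ⟨r, h⟩ t⟩
  else 1

theorem coe_xD (r : Rt chevD4) (t : F) : (xD r t : GL chevD4.Idx F) = xU chevD4 F r t := by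
  rw [xD, dif_pos r.2]

/-- In even characteristic the adjoint group `D₄(q)` has Steinberg's presentation. -/
theorem exists_hom [CharP F 2] {G : Type*} [Group G] {y : ℕ → F → G} (h : St chevD4 y)
    (h3 : R3 chevD4 y) : ∃ ψ : chevD4.group F →* G,
      (∀ (r : Rt chevD4) t, ψ (xD r t) = y r t) ∧ ψ.range = GG chevD4 y := by
  have := Fintype.ofFinite F
  obtain ⟨θ, hθ⟩ := exists_theta_group chevD4 F
  have hs := theta_surjective (GG_stGen chevD4 F) θ hθ
  have hk := (st_stGen chevD4 F).theta_ker (GG_stGen chevD4 F) θ hθ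
  have hc : cker chevD4 Fˣ = ⊥ := by
    obtain ⟨n, -, hn⟩ := FiniteField.card F 2
    rw [← Subgroup.card_eq_one, kerD4.card_cker_units, Nat.card_eq_fintype_card, hn]
    have : Nat.gcd 2 (2 ^ (n : ℕ) - 1) = 1 := by
      refine (Nat.coprime_two_left.2 ?_)
      exact Nat.Even.sub_odd Nat.one_le_two_pow (Nat.even_pow.2 ⟨even_two, n.ne_zero⟩) odd_one
    rw [this, one_pow]
  rw [center_steinberg, hc, Subgroup.map_bot] at hk
  let e := MulEquiv.ofBijective θ ⟨(MonoidHom.ker_eq_bot_iff θ).1 hk, hs⟩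
  have he : ∀ (r : Rt chevD4) t, e.symm (xD r t) = chevD4.stGen F r t := fun r t => by
    rw [MulEquiv.symm_apply_eq]
    exact Subtype.ext ((coe_xD r t).trans (hθ r t).symm)
  refine ⟨(h.groupHom h3).comp e.symm.toMonoidHom, fun r t => ?_, ?_⟩
  · rw [MonoidHom.comp_apply, MulEquiv.coe_toMonoidHom, he, h.groupHom_gen]
  · rw [← range_eq_GG _ (h.groupHom_gen h3) (GG_stGen chevD4 F), MonoidHom.range_comp,
      MonoidHom.range_eq_top.2 e.symm.surjective, ← MonoidHom.range_eq_map]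

theorem exists_inj [CharP F 2] {G : Type*} [Group G] {y : ℕ → F → G} (h : St chevD4 y)
    (h3 : R3 chevD4 y) (hne : ∃ (r : Rt chevD4) (t : F), y r t ≠ 1) :
    ∃ ψ : chevD4.group F →* G, Function.Injective ψ ∧
      (∀ (r : Rt chevD4) t, ψ (xD r t) = y r t) ∧ ψ.range = GG chevD4 y := by
  obtain ⟨ψ, h1, h2⟩ := exists_hom h h3
  refine ⟨ψ, ?_, h1, h2⟩
  have := d4_simple F
  rcases (MonoidHom.normal_ker ψ).eq_bot_or_eq_top with e | e
  · exact (MonoidHom.ker_eq_bot_iff ψ).1 e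
  · obtain ⟨r, t, hr⟩ := hne
    exact (hr (by rw [← h1]; exact MonoidHom.mem_ker.1 (e ▸ Subgroup.mem_top _))).elim

/-- A nontrivial group generated by `D₄`-root elements over `F` is `Ω₈⁺(F)`. -/
theorem GG_equiv [CharP F 2] {G : Type*} [Group G] {y : ℕ → F → G} (h : St chevD4 y)
    (h3 : R3 chevD4 y) (hne : ∃ (r : Rt chevD4) (t : F), y r t ≠ 1) :
    Nonempty (GG chevD4 y ≃* Cfsg.Omega F (Cfsg.quadFormPlus 4 F)) := by
  obtain ⟨ψ, h0, -, h2⟩ := exists_inj h h3 hne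
  obtain ⟨a⟩ := d4_equiv F
  exact ⟨((MonoidHom.ofInjective h0).trans (MulEquiv.subgroupCongr h2)).symm.trans a⟩

end four

section E8

variable {F k : Type*} [Field F] [Finite F] [Field k] [CharP k 2] (φ : F →+* k) {ρ : ℕ → ℕ}

/-- The root elements `x_{ρ r}(φ t)` of `E₈(k)`. -/
noncomputable abbrev yE (ρ : ℕ → ℕ) (r : ℕ) (t : F) : GL chevE8.Idx k := xU chevE8 k (ρ r) (φ t)

theorem st_yE (o : SubOK chevD4 chevE8 ρ) : St chevD4 (yE φ ρ) :=
  o.st (stB_xU chevE8 k).toSt φ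

theorem r3_yE (o : SubOK chevD4 chevE8 ρ) : R3 chevD4 (yE φ ρ) := o.r3 (r3_xU chevE8 k) φ

theorem yE_ne (o : SubOK chevD4 chevE8 ρ) : ∃ (r : Rt chevD4) (t : F), yE φ ρ r t ≠ 1 :=
  ⟨⟨0, by decide⟩, 1, fun e => one_ne_zero ((map_eq_zero φ).1
    ((stB_xU chevE8 k).eq_zero_of_x_eq_one ⟨ρ 0, (o 0 (by decide)).1⟩ e))⟩

include φ in
theorem charP_src : CharP F 2 := φ.charP φ.injective 2

/-- E1: the subgroup `D = ⟨x_a(t) : a ∈ Ψ, t ∈ F⟩` of `E₈(k)` is an isomorphic image of `D₄(F)`. -/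
theorem exists_E1 (o : SubOK chevD4 chevE8 ρ) :
    ∃ ψ : chevD4.group F →* GL chevE8.Idx k, Function.Injective ψ ∧
      (∀ (r : Rt chevD4) t, ψ (xD r t) = yE φ ρ r t) ∧ ψ.range = GG chevD4 (yE φ ρ) :=
  have := charP_src φ
  exists_inj (st_yE φ o) (r3_yE φ o) (yE_ne φ o)

/-- E1: `D ≅ Ω₈⁺(F)`. -/
theorem jobE1 (o : SubOK chevD4 chevE8 ρ) :
    Nonempty (GG chevD4 (yE φ ρ) ≃* Cfsg.Omega F (Cfsg.quadFormPlus 4 F)) :=
  have := charP_src φ
  GG_equiv (st_yE φ o) (r3_yE φ o) (yE_ne φ o)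

theorem GG_yE_le (o : SubOK chevD4 chevE8 ρ) : GG chevD4 (yE φ ρ) ≤ chevE8.group k := by
  rw [group_eq]
  exact GG_le fun r t => x_mem_GG (x := xU chevE8 k) ⟨ρ r, (o r r.2).1⟩ (φ t)

end E8

end H64.O84
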