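import Cfsg.Agent.H64.O84E2
import Cfsg.Agent.H12.O84Gam

/-! Two subgroups `Ω₈⁺(4)` in twisted forms of `E₈(2)`, inside the general linear group. -/

set_option autoImplicit false

namespace H64.O84

open Cfsg.Lie H63 H65 H12.O84

attribute [local instance] H65.tabE8 H65.commE8

variable (F : Type*) [Field F] [Finite F]

theorem exists_emb [CharP F 2] : Nonempty (F →+* K2) := by
  let _ : Algebra (ZMod 2) F := ZMod.algebra F 2
  exact ⟨(IsAlgClosed.lift : F →ₐ[ZMod 2] K2).toRingHom⟩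

theorem exists_om (h4 : Nat.card F = 4) (φ : F →+* K2) : ∃ om : K2ˣ, orderOf om = 3 := by
  obtain ⟨g, hg⟩ := IsCyclic.exists_ofOrder_eq_natCard (α := Fˣ)
  rw [Nat.card_units, h4] at hg
  exact ⟨Units.map φ.toMonoidHom g,
    (orderOf_injective _ (Units.map_injective φ.injective) g).trans hg⟩

variable {F}

/-- The subgroup of E2 in the form used by the Lang transport and by the non-conjugacy proof. -/
theorem SwapOK.exists_GL {L τ : List ℕ} (o : SwapOK L τ) (φ : F →+* K2) (h4 : Nat.card F = 4) :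
    ∃ H : Subgroup GLh, H ≤ Gv L ∧ Nonempty (H ≃* Cfsg.Omega F (Cfsg.quadFormPlus 4 F)) ∧
      ∀ g ∈ (DG φ).map Gh.subtype,
        g * (nv L * Matrix.GeneralLinearGroup.map (frobenius K2 2) g * (nv L)⁻¹) ∈ H := by
  obtain ⟨H, h1, ⟨e⟩, h3⟩ := o.exists_H φ h4
  refine ⟨H.map Gh.subtype, ?_, ⟨(H.equivMapOfInjective _ Subtype.val_injective).symm.trans e⟩,
    diag_mem φ h3⟩
  rintro _ ⟨g, hg, rfl⟩
  exact mem_Gam_iff.1 (h1 hg)

/-- The non-conjugacy statement of chapter E3. -/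
def NotConj : Prop := ∀ om : K2ˣ, orderOf om = 3 → ∀ D H1 H2 : Subgroup GLh,
  (∀ i ∈ [1, 2, 3, 4], ∀ t : K2, t ^ 4 = t → xU chevE8 K2 (chevE8.simple i) t ∈ D ∧
    xU chevE8 K2 (chevE8.neg (chevE8.simple i)) t ∈ D) →
  (∀ g ∈ D, g * (nv w1 * Matrix.GeneralLinearGroup.map (frobenius K2 2) g * (nv w1)⁻¹) ∈ H1) →
  (∀ g ∈ D, g * (nv w2 * Matrix.GeneralLinearGroup.map (frobenius K2 2) g * (nv w2)⁻¹) ∈ H2) →
  Finite H1 → ¬ 3 ^ 6 ∣ Nat.card H1 → ∀ y : GLh, ¬ ∀ x ∈ H2, y * x * y⁻¹ ∈ H1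

theorem twoOm_of_notConj (h4 : Nat.card F = 4) (nc : NotConj)
    (hc : ¬ 3 ^ 6 ∣ Nat.card (Cfsg.Omega F (Cfsg.quadFormPlus 4 F))) :
    H36.O84.TwoOm G2 (Cfsg.Omega F (Cfsg.quadFormPlus 4 F)) := by
  have := charP_of_card F h4
  obtain ⟨φ⟩ := exists_emb F
  obtain ⟨om, hom⟩ := exists_om F h4 φ
  obtain ⟨H1, a1, ⟨e1⟩, c1⟩ := swap1.exists_GL φ h4
  obtain ⟨H2, a2, e2, c2⟩ := swap2.exists_GL φ h4
  have hc' : ¬ 3 ^ 6 ∣ Nat.card H1 := by rwa [Nat.card_congr e1.toEquiv]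
  exact twoOm_of a1 a2 ⟨e1⟩ e2 (nc om hom _ H1 H2 (simple_mem φ h4) c1 c2
    (Nat.finite_of_card_ne_zero fun e => hc' (e ▸ dvd_zero _)) hc')

end H64.O84
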