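import Cfsg.Agent.H64.O84E1
import Cfsg.Agent.H46.O84A

/-! The diagonal subgroups `{g σ(g) : g ∈ D₄(4)}` of the twisted forms of `E₈(2)`. -/

set_option autoImplicit false
set_option linter.unusedSectionVars false

namespace H64.O84

open Cfsg.Lie H63 H65 H46.O84

local instance tD4' : Tab chevD4 := tabD4
local instance cD4' : Comm chevD4 := commD4
local instance tE8' : Tab chevE8 := tabE8
local instance cE8' : Comm chevE8 := commE8

/-- The action of a word in the fundamental reflections on root numbers. -/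
def fW (D : ChevalleyDatum) (l : List ℕ) (r : ℕ) : ℕ :=
  l.foldr (fun i s => if i < D.rank then D.reflectRoot i s else s) r

theorem wW_val {D : ChevalleyDatum} [RS D] (l : List ℕ) (r : Rt D) :
    ((wW D l).1 r : ℕ) = fW D l r := by
  induction l with
  | nil => rfl
  | cons i l ih =>
    rw [wW_cons, H64.WData.mul_apply, fW, List.foldr_cons, ← fW, ← ih, sN]
    split_ifs <;> rfl

/-- The word `L` swaps `Ψ₁` with the orthogonal system listed in `τ`. -/
def SwapOK (L τ : List ℕ) : Prop :=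
  ∀ r < 24, fW chevE8 L (rho r) = τ.getD r 0 ∧ fW chevE8 L (τ.getD r 0) = rho r ∧
    ∀ s < 24, τ.getD s 0 ≠ rho r ∧ τ.getD s 0 ≠ chevE8.neg (rho r) ∧
      (chevE8.commTerms (rho r) (τ.getD s 0)).length = 0

instance (L τ : List ℕ) : Decidable (SwapOK L τ) := by unfold SwapOK; infer_instance

/-- The first involution. -/
def w1 : List ℕ := [5, 6, 7, 4, 5, 6, 0, 2, 3, 4, 5, 1, 3, 4, 2, 3, 0, 2, 1, 3, 4, 5, 6, 7, 5, 3, 4,
  2, 3, 0, 2, 1, 3, 4, 5, 6, 2, 3, 0, 2, 1, 3, 4, 5, 1, 3, 2, 0]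

/-- The second involution. -/
def w2 : List ℕ := [5, 6, 7, 4, 5, 6, 0, 2, 3, 4, 5, 1, 3, 4, 2, 3, 0, 2, 1, 3, 4, 5, 6, 7, 5, 3, 4,
  2, 3, 0, 2, 1, 3, 4, 5, 6, 4, 3, 0, 2, 1, 3, 4, 5, 1, 3, 2, 0]

theorem swap1 : SwapOK w1 [0, 1, 78, 2, 79, 80, 11, 117, 12, 119, 118, 13, 226, 121, 120, 227, 122,
  228, 159, 160, 237, 161, 238, 239] := by decide +kernel

theorem swap2 : SwapOK w2 [0, 1, 78, 11, 117, 118, 2, 79, 12, 119, 80, 13, 226, 159, 120, 227, 160,
  237, 121, 122, 228, 161, 238, 239] := by decide +kernel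

open Polynomial in
theorem mem_range_of_pow {F K : Type*} [Field F] [Finite F] [Field K] (ι : F →+* K) {τ : K}
    (h : τ ^ Nat.card F = τ) : ∃ t, ι t = τ := by
  have := Fintype.ofFinite F
  rw [Nat.card_eq_fintype_card] at h
  have hs : (Polynomial.X ^ Fintype.card F - Polynomial.X : Polynomial F).Splits := by
    rw [splits_iff_card_roots, FiniteField.roots_X_pow_card_sub_X,
      FiniteField.X_pow_card_sub_X_natDegree_eq F Fintype.one_lt_card]
    rfl
  refine hs.mem_range_of_isRoot (FiniteField.X_pow_card_sub_X_ne_zero F Fintype.one_lt_card) ?_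
  simp [h]

variable {F k : Type*} [Field F] [Finite F] [Field k] [CharP k 2] (φ : F →+* k)

/-- The root elements of `D` inside the group `E₈(k)`. -/
noncomputable abbrev yG (r : ℕ) (t : F) : chevE8.group k := xG chevE8 k (rho r) (φ t)

/-- The subgroup `D = D₄(F)` of `E₈(k)`. -/
noncomputable abbrev DG : Subgroup (chevE8.group k) := GG chevD4 (yG φ)

theorem r3_xG : R3 chevE8 (xG chevE8 k) := fun r hr a b ha hb => Subtype.ext (by
  have e : ∀ c, ((hh chevE8 (xG chevE8 k) r c : chevE8.group k) : GL chevE8.Idx k) =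
      hh chevE8 (xU chevE8 k) r c := fun c => map_hh_eq (chevE8.group k).subtype r c
  rw [Subgroup.coe_mul, e, e, e]
  exact r3_xU chevE8 k r hr a b ha hb)

theorem st_yG : St chevD4 (yG φ) := rho_ok.st H67.stBG.toSt φ

theorem yG_ne (r : Rt chevD4) {t : F} (h : yG φ r t = 1) : t = 0 :=
  (map_eq_zero φ).1 (H67.stBG.eq_zero_of_x_eq_one (⟨rho r, (rho_ok r r.2).1⟩ : Rt chevE8) h)

theorem DG_equiv : Nonempty (DG φ ≃* Cfsg.Omega F (Cfsg.quadFormPlus 4 F)) :=
  have := charP_src φ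
  GG_equiv (st_yG φ) (rho_ok.r3 r3_xG φ) ⟨⟨0, by decide⟩, 1, fun e => one_ne_zero (yG_ne φ _ e)⟩

theorem DG_simple : IsSimpleGroup (DG φ) := by
  have := charP_src φ
  obtain ⟨a⟩ := DG_equiv φ
  exact a.isSimpleGroup_congr.2 (om_simple F)

theorem map_DG : (DG φ).map (chevE8.group k).subtype = GG chevD4 (yE φ rho) :=
  map_GG _ fun _ _ => rfl

theorem not_comm : ¬ Commute (yG φ 18 1) (yG φ 14 1) := fun h => by
  have := (st_yG φ).comm 18 14 (by decide) (by decide) (by decide) (by decide) 1 1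
  rw [ChevalleyDatum.commWord, show chevD4.commTerms 18 14 = [(19, -1, 1, 1)] by decide +kernel,
    ← h.eq, left_eq_mul] at this
  simp only [List.map_cons, List.map_nil, wd_cons, wd_nil, mul_one] at this
  have := yG_ne φ ⟨19, by decide⟩ this
  simp at this

section swap

variable {L τ : List ℕ} (o : SwapOK L τ)
include o

theorem SwapOK.sig_y (r : Rt chevD4) (t : F) :
    sig chevE8 k L (yG φ r t) = xG chevE8 k (τ.getD r 0) (φ t ^ 2) := by
  rw [← (o r r.2).1, ← wW_val L ⟨rho r, (rho_ok r r.2).1⟩]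
  exact sig_x L ⟨rho r, (rho_ok r r.2).1⟩ _

theorem SwapOK.lt (r : Rt chevD4) : τ.getD r 0 < chevE8.nroots := by
  rw [← (o r r.2).1, ← wW_val L ⟨rho r, (rho_ok r r.2).1⟩]
  exact Fin.is_lt _

theorem SwapOK.comm {g h : chevE8.group k} (hg : g ∈ DG φ) (hh : h ∈ DG φ) :
    Commute g (sig chevE8 k L h) := by
  have key : ∀ (r : Rt chevD4) (t : F), DG φ ≤
      (Subgroup.centralizer {yG φ r t}).comap (sig chevE8 k L) := fun r t =>
    GG_le fun s u => by
      rw [Subgroup.mem_comap, Subgroup.mem_centralizer_singleton_iff, o.sig_y]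
      obtain ⟨a, b, c⟩ := (o r r.2).2.2 s s.2
      rw [H67.stBG.toSt.comm _ _ (rho_ok r r.2).1 (o.lt s) a b, ChevalleyDatum.commWord,
        List.length_eq_zero_iff.1 c]
      simp
  have : DG φ ≤ Subgroup.centralizer {sig chevE8 k L h} := GG_le fun r t => by
    rw [Subgroup.mem_centralizer_singleton_iff]
    exact (Subgroup.mem_centralizer_singleton_iff.1 (key r t hh)).symm
  exact Subgroup.mem_centralizer_singleton_iff.1 (this hg)

theorem SwapOK.sig_sig (h4 : Nat.card F = 4) {g : chevE8.group k} (hg : g ∈ DG φ) :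
    sig chevE8 k L (sig chevE8 k L g) = g := by
  refine hom_ext_GG (φ := (sig chevE8 k L).comp (sig chevE8 k L)) (ψ := MonoidHom.id _)
    (fun r t => ?_) hg
  have := Fintype.ofFinite F
  have ht : t ^ 4 = t := by rw [← h4, Nat.card_eq_fintype_card]; exact FiniteField.pow_card t
  rw [MonoidHom.comp_apply, o.sig_y, MonoidHom.id_apply]
  refine (sig_x L ⟨τ.getD r 0, o.lt r⟩ _).trans ?_
  rw [wW_val, (o r r.2).2.1, ← pow_mul, ← map_pow, ht]

/-- The diagonal map `g ↦ g σ(g)` on `D`. -/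
noncomputable def SwapOK.diag : DG φ →* chevE8.group k :=
  MonoidHom.mk' (fun g => g.1 * sig chevE8 k L g.1) fun a b => by
    have := (o.comm φ b.2 a.2).eq
    rw [Subgroup.coe_mul, map_mul, mul_assoc, ← mul_assoc b.1, this]
    simp only [mul_assoc]

theorem SwapOK.diag_apply (g : DG φ) : o.diag φ g = g.1 * sig chevE8 k L g.1 := rfl

theorem SwapOK.diag_injective : Function.Injective (o.diag φ) := by
  have := DG_simple φ
  rcases (MonoidHom.normal_ker (o.diag φ)).eq_bot_or_eq_top with e | e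
  · exact (MonoidHom.ker_eq_bot_iff _).1 e
  · have h1 : yG φ 14 1 ∈ DG φ := x_mem_GG (x := yG φ) ⟨14, by decide⟩ 1
    have h2 : yG φ 18 1 ∈ DG φ := x_mem_GG (x := yG φ) ⟨18, by decide⟩ 1
    have h3 : o.diag φ ⟨_, h1⟩ = 1 := MonoidHom.mem_ker.1 (e ▸ Subgroup.mem_top _)
    rw [o.diag_apply, mul_eq_one_iff_eq_inv] at h3
    refine (not_comm φ ?_).elim
    rw [show yG φ 14 1 = _ from h3]
    exact (o.comm φ h2 h1).inv_right

theorem SwapOK.range_le (h4 : Nat.card F = 4) : (o.diag φ).range ≤ Gam chevE8 k L := by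
  rintro _ ⟨g, rfl⟩
  rw [mem_Gam, o.diag_apply, map_mul, o.sig_sig φ h4 g.2]
  exact (o.comm φ g.2 g.2).eq.symm

theorem SwapOK.range_equiv :
    Nonempty ((o.diag φ).range ≃* Cfsg.Omega F (Cfsg.quadFormPlus 4 F)) := by
  obtain ⟨a⟩ := DG_equiv φ
  exact ⟨(MonoidHom.ofInjective (o.diag_injective φ)).symm.trans a⟩

/-- E2: a subgroup `Ω₈⁺(4)` of the twisted group containing all `g σ(g)`, `g ∈ D`. -/
theorem SwapOK.exists_H (h4 : Nat.card F = 4) : ∃ H : Subgroup (chevE8.group k),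
    H ≤ Gam chevE8 k L ∧ Nonempty (H ≃* Cfsg.Omega F (Cfsg.quadFormPlus 4 F)) ∧
      ∀ g ∈ DG φ, g * sig chevE8 k L g ∈ H :=
  ⟨_, o.range_le φ h4, o.range_equiv φ, fun g hg => ⟨⟨g, hg⟩, rfl⟩⟩

end swap

theorem coe_sig (L : List ℕ) (g : chevE8.group k) :
    ((sig chevE8 k L g : chevE8.group k) : GL chevE8.Idx k) =
      H46.nL chevE8 (xU chevE8 k) L * Matrix.GeneralLinearGroup.map (frobenius k 2) g.1 *
        (H46.nL chevE8 (xU chevE8 k) L)⁻¹ := by
  rw [sig_apply, ← H46.map_nL (x := xG chevE8 k) (y := xU chevE8 k) (chevE8.group k).subtype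
    (fun i => map_nn_eq (chevE8.group k).subtype _ _) L]
  rfl

/-- The generators of `D` in the form used for the non-conjugacy proof. -/
theorem simple_mem (h4 : Nat.card F = 4) : ∀ i ∈ [1, 2, 3, 4], ∀ t : k, t ^ 4 = t →
    xU chevE8 k (chevE8.simple i) t ∈ (DG φ).map (chevE8.group k).subtype ∧
      xU chevE8 k (chevE8.neg (chevE8.simple i)) t ∈ (DG φ).map (chevE8.group k).subtype := by
  intro i hi t ht
  obtain ⟨t, rfl⟩ := mem_range_of_pow φ (h4 ▸ ht)
  have key : ∀ i ∈ [1, 2, 3, 4], ∃ r < 24, ∃ s < 24, rho r = chevE8.simple i ∧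
      rho s = chevE8.neg (chevE8.simple i) := by decide +kernel
  obtain ⟨r, hr, s, hs, e1, e2⟩ := key i hi
  rw [← e2, ← e1, map_DG]
  exact ⟨x_mem_GG (x := yE φ rho) ⟨r, hr⟩ t, x_mem_GG (x := yE φ rho) ⟨s, hs⟩ t⟩

/-- The hypothesis on `H` of the non-conjugacy proof, inside the general linear group. -/
theorem diag_mem {L : List ℕ} {H : Subgroup (chevE8.group k)}
    (h : ∀ g ∈ DG φ, g * sig chevE8 k L g ∈ H) :
    ∀ g ∈ (DG φ).map (chevE8.group k).subtype,
      g * (H46.nL chevE8 (xU chevE8 k) L * Matrix.GeneralLinearGroup.map (frobenius k 2) g *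
        (H46.nL chevE8 (xU chevE8 k) L)⁻¹) ∈ H.map (chevE8.group k).subtype := by
  rintro _ ⟨g, hg, rfl⟩
  exact ⟨_, h g hg, by rw [Subgroup.subtype_apply, Subgroup.coe_mul, coe_sig]; rfl⟩

end H64.O84
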